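import Cfsg.Agent.Eq.Def_BlockRank
import Cfsg.Agent.Eq.Def_BlockLocal
import Cfsg.Agent.Blocks.Defect.SubgroupTransport
import Cfsg.Agent.Blocks.KleinFour.Pairs
import Cfsg.Agent.Blocks.KLSum.UnionRank

/-!
# The block under a maximal pair at an intermediate subgroup

For a pair `(P, g)` and a subgroup `S` containing `P`, `rankUnder S P g` is the rank of the block
of `S` lying under `g`; it is computed in any group containing `S`.
-/

set_option autoImplicit false
set_option linter.style.haveILetI false
open Cfsg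
open scoped MonoidAlgebra

namespace CfsgLib.Blocks.InertiaFixed

universe u

variable {M : Ideal AlgInt} [hM : M.IsMaximal] {G : Type u} [Group G] [Finite G]
  {p : ℕ} [hp : Fact p.Prime] [CharP (kres M) p]

open scoped Classical in
/-- The rank of the block of `S` under the pair `(P, g)`. -/
noncomputable def rankUnder (p : ℕ) (S P : Subgroup G) (g : (kres M)[G]) : ℕ :=
  if h : ∃ b : Set (IrrCharacter S), IsPBlock M b ∧ BrOver P g (subEl M S b) then
    blockRank p h.choose else 0

/-- At most one block of `S` lies under `g`. -/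
theorem brOver_unique {S P : Subgroup G} (hPp : IsPGroup p P) (hPS : P ≤ S) {g f f' : (kres M)[G]}
    (hg : g ≠ 0) (hf : IsBlockIdem S f) (hf' : IsBlockIdem S f') (h : BrOver P g f)
    (h' : BrOver P g f') : f = f' := by
  by_contra hne
  apply hg
  unfold BrOver at h h'
  rw [← h, ← h', ← mul_assoc, ← brTrunc_mul hPp (hf.mem.2.mono hPS) (hf'.mem.2.mono hPS),
    hf.orthogonal hf' hne, map_zero, zero_mul]

theorem rankUnder_eq {S P : Subgroup G} (hPp : IsPGroup p P) (hPS : P ≤ S) {g : (kres M)[G]}
    (hg : g ≠ 0) {b : Set (IrrCharacter S)} (hb : IsPBlock M b)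
    (h : BrOver P g (subEl M S b)) : rankUnder p S P g = blockRank p b := by
  have hex : ∃ b : Set (IrrCharacter S), IsPBlock M b ∧ BrOver P g (subEl M S b) := ⟨b, hb, h⟩
  unfold rankUnder
  rw [dif_pos hex]
  congr 1
  exact subEl_injective hex.choose_spec.1 hb (brOver_unique hPp hPS hg
    (isBlockIdem_subEl hex.choose_spec.1) (isBlockIdem_subEl hb) hex.choose_spec.2 h)

omit [Finite G] hp [CharP (kres M) p] in
/-- The whole group as a subgroup. -/
theorem exists_block_top [Finite G] {B : Set (IrrCharacter G)} (hB : IsPBlock M B) :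
    ∃ b : Set (IrrCharacter (⊤ : Subgroup G)), IsPBlock M b ∧ subEl M ⊤ b = topEl M B ∧
      ∀ q, blockRank q b = blockRank q B := by
  refine ⟨mapBlock (Subgroup.topEquiv (G := G)).symm B, isPBlock_mapBlock _ hB, ?_,
    fun q => KLSum.blockRank_mapBlock _ B⟩
  exact blockEl_mapBlock _ Function.injective_id (Subgroup.subtype_injective _) (fun _ => rfl) B

theorem rankUnder_top {P : Subgroup G} {B : Set (IrrCharacter G)} (hB : IsPBlock M B)
    {g : (kres M)[G]} (hmax : IsMaxPairIdem p ⊤ (topEl M B) P g) :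
    rankUnder p ⊤ P g = blockRank p B := by
  obtain ⟨b, hb, he, hr⟩ := exists_block_top (M := M) hB
  rw [rankUnder_eq hmax.1.1.1 le_top hmax.1.1.2.2.ne_zero hb (by rw [he]; exact hmax.1.2), hr]

/-- A block under `(P, g)` at the centralizer of a subgroup of an abelian `P`. -/
theorem exists_under {P Q : Subgroup G} (hab : ∀ x ∈ P, ∀ y ∈ P, x * y = y * x) {g : (kres M)[G]}
    (hg : IsPairIdem p ⊤ P g) (hQ : Q ≤ P) :
    ∃ b : Set (IrrCharacter (Subgroup.centralizer (Q : Set G))), IsPBlock M b ∧
      BrOver P g (subEl M _ b) ∧ PairLE p ⊤ Q (subEl M _ b) P g := by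
  obtain ⟨f, hf, -⟩ := hg.existsUnique_le hQ
  have hbl := (hf.isPair_left hg).2.2
  rw [top_inf_eq] at hbl
  obtain ⟨b, hb, rfl⟩ := exists_subEl_eq (M := M) hbl
  exact ⟨b, hb, (hf.isNormal hg ((KleinFour.le_centralizer_of_abelian hab hQ).trans
    (Subgroup.centralizer_le_normalizer _))).2.2.2.2.2, hf⟩

/-- The rank is computed in any group containing the subgroup. -/
theorem rankUnder_map {K : Type u} [Group K] [Finite K] {φ : K →* G} (hφ : Function.Injective φ)
    {S P : Subgroup K} (hPp : IsPGroup p P) (hPS : P ≤ S) {g : (kres M)[K]} (hg : g ≠ 0)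
    (hex : ∃ b : Set (IrrCharacter (S.map φ)), IsPBlock M b ∧
      BrOver (P.map φ) (emb (kres M) φ g) (subEl M _ b)) :
    rankUnder p S P g = rankUnder p (S.map φ) (P.map φ) (emb (kres M) φ g) := by
  obtain ⟨b, hb, hover⟩ := hex
  have hg' : emb (kres M) φ g ≠ 0 := fun h => hg (emb_injective hφ (by rw [h, map_zero]))
  rw [rankUnder_eq (hPp.map φ) (Subgroup.map_mono hPS) hg' hb hover]
  set e : S ≃* S.map φ := S.equivMapOfInjective φ hφ with he
  have hb' : IsPBlock M (mapBlock e.symm b) := isPBlock_mapBlock _ hb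
  have hemb : emb (kres M) φ (subEl M S (mapBlock e.symm b)) = subEl M _ b := by
    rw [subEl, subEl, blockEl, ← emb_comp]
    exact blockEl_mapBlock (M := M) (f := (S.map φ).subtype) (f' := φ.comp S.subtype) e.symm
      (Subgroup.subtype_injective _) (hφ.comp (Subgroup.subtype_injective _))
      (fun x => congrArg Subtype.val (e.apply_symm_apply x)) b
  rw [rankUnder_eq hPp hPS hg hb', KLSum.blockRank_mapBlock]
  apply emb_injective hφ
  rw [map_mul, emb_brTrunc hφ, hemb]
  exact hover

/-- A block of the centralizer of an abelian defect group gives a maximal pair. -/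
theorem isMaxPairIdem_of_induced' (hMp : IsPModular p M) {B : Set (IrrCharacter G)}
    (hB : IsPBlock M B) {P C : Subgroup G} (hPD : IsDefectGroup p M B P)
    (hab : ∀ x ∈ P, ∀ y ∈ P, x * y = y * x) (hC : C = Subgroup.centralizer (P : Set G))
    {c : Set (IrrCharacter C)} (hc : IsInducedBlock M C c B) :
    IsMaxPairIdem p ⊤ (topEl M B) P (subEl M C c) := by
  subst hC
  exact KleinFour.isMaxPairIdem_of_induced hMp hB hPD hab hc

/-- A maximal pair of the group seen inside a subgroup between `C(P)` and the group. -/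
theorem exists_maxPair_subgroup (hMp : IsPModular p M) {P H : Subgroup G} (hPp : IsPGroup p P)
    (hab : ∀ x ∈ P, ∀ y ∈ P, x * y = y * x) (hPH : P ≤ H)
    (hCH : Subgroup.centralizer (P : Set G) ≤ H) {b : Set (IrrCharacter H)} (hb : IsPBlock M b)
    (hD : IsDefectGroupIdem p H (subEl M H b) P) {g : (kres M)[G]}
    (hg : IsBlockIdem (Subgroup.centralizer (P : Set G)) g) (hover : BrOver P g (subEl M H b)) :
    ∃ g' : (kres M)[H], emb (kres M) H.subtype g' = g ∧
      IsMaxPairIdem p ⊤ (topEl M b) (P.subgroupOf H) g' := by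
  obtain ⟨c, hc, rfl⟩ := exists_subEl_eq (M := M) hg
  have hPC := KleinFour.le_centralizer_of_abelian hab (le_refl P)
  have hin : IsInducedBlockIn M H (Subgroup.centralizer (P : Set G)) c b :=
    (isInducedBlockIn_iff_brOver hMp hPp hPC hCH inf_le_right
      (Subgroup.centralizer_le_normalizer _) hc hb).2 hover
  set φ := (Subgroup.subgroupOfEquivOfLe hCH).symm with hφ
  have hC' : (Subgroup.centralizer (P : Set G)).subgroupOf H =
      Subgroup.centralizer ((P.subgroupOf H : Subgroup H) : Set H) := by
    ext y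
    simp only [Subgroup.mem_subgroupOf, Subgroup.mem_centralizer_iff, SetLike.mem_coe]
    refine ⟨fun h q hq => Subtype.ext (h q hq), fun h q hq => ?_⟩
    exact congrArg Subtype.val (h ⟨q, hPH hq⟩ hq)
  refine ⟨subEl M _ (mapBlock φ c), ?_, isMaxPairIdem_of_induced' hMp hb
    ((isDefectGroup_subgroupOf_iff hPH hb).mpr hD)
    (fun x hx y hy => Subtype.ext (hab _ hx _ hy)) hC'
    ((isInducedBlockIn_iff_subgroupOf hCH hc).mp hin)⟩
  rw [subEl, blockEl, ← emb_comp]
  exact blockEl_mapBlock (M := M) (f := (Subgroup.centralizer (P : Set G)).subtype)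
    (f' := H.subtype.comp ((Subgroup.centralizer (P : Set G)).subgroupOf H).subtype) φ
    (Subgroup.subtype_injective _) (H.subtype_injective.comp (Subgroup.subtype_injective _))
    (fun _ => rfl) c

end CfsgLib.Blocks.InertiaFixed
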