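import Cfsg.Agent.Blocks.InertiaFixed.Local

/-!
# The inertial group on an abelian defect group

* `exists_stab_of_carries`: fusion on an abelian defect group is induced by the inertial group;
* `not_dvd_relIndex`: the inertial index is prime to `p`;
* `eq_one_of_fixed`: a fixed point in the subgroup generated by the commutators is trivial.
-/

set_option autoImplicit false
set_option linter.style.haveILetI false
open Cfsg
open scoped MonoidAlgebra

namespace CfsgLib.Blocks.InertiaFixed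

universe u

variable {M : Ideal AlgInt} [hM : M.IsMaximal] {G : Type u} [Group G] [Finite G]
  {p : ℕ} [hp : Fact p.Prime] [CharP (kres M) p] {P : Subgroup G} {e g : (kres M)[G]}

/-- Fusion in an abelian defect group is induced by the inertial group. -/
theorem exists_stab_of_carries (he : IsBlockIdem ⊤ e) (hmax : IsMaxPairIdem p ⊤ e P g)
    (hab : ∀ x ∈ P, ∀ y ∈ P, x * y = y * x) {v x : G}
    (hx : Carries p P g (Subgroup.zpowers v) x) :
    ∃ t ∈ pairStab ⊤ P g, t * v * t⁻¹ = x * v * x⁻¹ := by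
  obtain ⟨f, hf, hfx⟩ := hx
  have h1 := hf.conjA (x := x) trivial
  obtain ⟨c, hc, hcP, hcg⟩ := KleinFour.exists_carry he hmax
    (KleinFour.isMaxPairIdem_conj he hmax x) hab
    (by
      rintro _ ⟨s, hs, rfl⟩ _ ⟨t, ht, rfl⟩
      rw [← map_mul, ← map_mul, hab s hs t ht]) hfx h1
  rw [map_conj_map_conj] at hcP
  rw [conjA_conjA] at hcg
  refine ⟨c * x, mem_pairStab.2 ⟨⟨trivial, mem_normalizer_of_map_conj_le hcP.le⟩, hcg⟩, ?_⟩
  have h2 := Subgroup.mem_centralizer_iff.1 hc (x * v * x⁻¹)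
    ⟨v, Subgroup.mem_zpowers v, rfl⟩
  calc c * x * v * (c * x)⁻¹ = c * (x * v * x⁻¹) * c⁻¹ := by group
    _ = x * v * x⁻¹ := by rw [← h2, mul_inv_cancel_right]

theorem le_centralizer_pair (hab : ∀ x ∈ P, ∀ y ∈ P, x * y = y * x) (hg : IsPairIdem p ⊤ P g) :
    Subgroup.centralizer (P : Set G) ≤ pairStab ⊤ P g ∧ P ≤ Subgroup.centralizer (P : Set G) :=
  ⟨centralizer_le_pairStab hg, KleinFour.le_centralizer_of_abelian hab le_rfl⟩

/-- The inertial index of an abelian defect group is prime to `p`. -/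
theorem not_dvd_relIndex (he : IsBlockIdem ⊤ e) (hmax : IsMaxPairIdem p ⊤ e P g)
    (hab : ∀ x ∈ P, ∀ y ∈ P, x * y = y * x) :
    ¬ p ∣ (Subgroup.centralizer (P : Set G)).relIndex (pairStab ⊤ P g) := by
  obtain ⟨hCT, hPC⟩ := le_centralizer_pair hab hmax.1.1
  have hD : IsDefectGroupIdem p (pairStab ⊤ P g) g P := by
    have h := (isDefectGroupIdem_pairStab_iff he hmax (PairLE.refl ⊤ P g)).mp fun x hx => ?_
    · rwa [inf_eq_left.mpr Subgroup.le_normalizer] at h
    · rw [inf_eq_left.mpr Subgroup.le_normalizer]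
      exact Subgroup.card_le_of_le inf_le_left
  have hbC : IsBlockIdem (Subgroup.centralizer (P : Set G)) g := by
    have := hmax.1.1.2.2
    rwa [top_inf_eq] at this
  have := not_dvd_relIndex_sup_defectGroup hCT
    ((pairStab_le_normalizer _ _ _).trans (normalizer_le_normalizer_centralizer P)) hbC
    hmax.1.1.isBlockIdem_pairStab hD
  rwa [sup_eq_left.mpr hPC] at this

/-- Commutators of the inertial group on `P`. -/
def commSet (T P : Subgroup G) : Set G := {z | ∃ t ∈ T, ∃ x ∈ P, t * x * t⁻¹ * x⁻¹ = z}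

/-- A fixed point in the span of the commutators is killed by the index. -/
theorem pow_relIndex_eq_one {T : Subgroup G} (hab : ∀ x ∈ P, ∀ y ∈ P, x * y = y * x)
    (hT : T ≤ Subgroup.normalizer (P : Set G)) (hCT : Subgroup.centralizer (P : Set G) ≤ T) {r : G}
    (hr : r ∈ Subgroup.closure (commSet T P)) (hfix : ∀ t ∈ T, t * r * t⁻¹ = r) :
    r ^ (Subgroup.centralizer (P : Set G)).relIndex T = 1 := by
  classical
  letI : CommGroup P :=
    { (inferInstance : Group P) with mul_comm := fun a b => Subtype.ext (hab a a.2 b b.2) }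
  set C := (Subgroup.centralizer (P : Set G)).subgroupOf T with hCd
  haveI : C.Normal := (Subgroup.normal_subgroupOf_iff_le_normalizer hCT).mpr
    (hT.trans (normalizer_le_normalizer_centralizer P))
  haveI := Fintype.ofFinite (T ⧸ C)
  have hmem : ∀ (t : T) (x : P), (t : G) * (x : G) * (t : G)⁻¹ ∈ P := fun t x =>
    (Subgroup.mem_normalizer_iff.1 (hT t.2) x).1 x.2
  let act : T → P →* P := fun t =>
    { toFun := fun x => ⟨(t : G) * (x : G) * (t : G)⁻¹, hmem t x⟩
      map_one' := Subtype.ext (by simp)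
      map_mul' := fun x y => Subtype.ext (by simp) }
  have hact : ∀ (s t : T), (s : T ⧸ C) = t → act s = act t := by
    intro s t h
    have hc : ((s : G))⁻¹ * (t : G) ∈ Subgroup.centralizer (P : Set G) :=
      Subgroup.mem_subgroupOf.1 (QuotientGroup.eq.1 h)
    refine MonoidHom.ext fun x => Subtype.ext ?_
    show (s : G) * (x : G) * (s : G)⁻¹ = (t : G) * (x : G) * (t : G)⁻¹
    have h2 := Subgroup.mem_centralizer_iff.1 hc x x.2
    calc (s : G) * (x : G) * (s : G)⁻¹
        = (s : G) * ((x : G) * ((s : G)⁻¹ * (t : G))) * (t : G)⁻¹ := by group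
      _ = (t : G) * (x : G) * (t : G)⁻¹ := by rw [h2]; group
  let N : P →* P := ∏ q : T ⧸ C, act q.out
  have hN : ∀ (t : T) (x : P), N (act t x) = N x := by
    intro t x
    simp only [N, MonoidHom.finsetProd_apply]
    refine Fintype.prod_equiv (Equiv.mulRight (t : T ⧸ C)) _ _ fun q => ?_
    have h1 : (((q * (t : T ⧸ C)).out : T) : T ⧸ C) = ((q.out * t : T) : T ⧸ C) := by
      rw [QuotientGroup.out_eq', QuotientGroup.mk_mul, QuotientGroup.out_eq']
    simp only [Equiv.coe_mulRight]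
    rw [hact _ _ h1]
    refine Subtype.ext ?_
    show (q.out : T).1 * ((t : G) * (x : G) * (t : G)⁻¹) * (q.out : T).1⁻¹ =
      ((q.out : T).1 * (t : G)) * (x : G) * ((q.out : T).1 * (t : G))⁻¹
    group
  have hker : ∀ z ∈ Subgroup.closure (commSet T P), ∃ hz : z ∈ P, N ⟨z, hz⟩ = 1 := by
    intro z hz
    refine Subgroup.closure_induction (p := fun z _ => ∃ hz : z ∈ P, N ⟨z, hz⟩ = 1)
      ?_ ⟨P.one_mem, map_one N⟩ ?_ ?_ hz
    · rintro _ ⟨t, ht, x, hx, rfl⟩
      refine ⟨P.mul_mem (hmem ⟨t, ht⟩ ⟨x, hx⟩) (P.inv_mem hx), ?_⟩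
      show N (act ⟨t, ht⟩ ⟨x, hx⟩ * ⟨x, hx⟩⁻¹) = 1
      rw [map_mul, hN, map_inv, mul_inv_cancel]
    · rintro a b - - ⟨ha, ha1⟩ ⟨hb, hb1⟩
      refine ⟨P.mul_mem ha hb, ?_⟩
      show N (⟨a, ha⟩ * ⟨b, hb⟩) = 1
      rw [map_mul, ha1, hb1, mul_one]
    · rintro a - ⟨ha, ha1⟩
      refine ⟨P.inv_mem ha, ?_⟩
      show N (⟨a, ha⟩⁻¹) = 1
      rw [map_inv, ha1, inv_one]
  obtain ⟨hrP, h1⟩ := hker r hr
  simp only [N, MonoidHom.finsetProd_apply] at h1
  rw [Finset.prod_congr rfl (g := fun _ => (⟨r, hrP⟩ : P))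
    (fun q _ => Subtype.ext (hfix _ (q.out : T).2)), Finset.prod_const, Finset.card_univ,
    ← Nat.card_eq_fintype_card, ← Subgroup.index_eq_card] at h1
  exact congrArg Subtype.val h1

/-- A fixed point in the span of the commutators is trivial. -/
theorem eq_one_of_fixed (he : IsBlockIdem ⊤ e) (hmax : IsMaxPairIdem p ⊤ e P g)
    (hab : ∀ x ∈ P, ∀ y ∈ P, x * y = y * x) {r : G} (hrP : r ∈ P)
    (hr : r ∈ Subgroup.closure (commSet (pairStab ⊤ P g) P))
    (hfix : ∀ t ∈ pairStab ⊤ P g, t * r * t⁻¹ = r) : r = 1 := by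
  have h1 := pow_relIndex_eq_one hab (pairStab_le_normalizer _ _ _)
    (centralizer_le_pairStab hmax.1.1) hr hfix
  obtain ⟨k, hk⟩ := IsPGroup.iff_orderOf.1 hmax.1.1.1 ⟨r, hrP⟩
  rw [Subgroup.orderOf_mk] at hk
  have h2 := orderOf_dvd_of_pow_eq_one h1
  rw [hk] at h2
  rcases Nat.eq_zero_or_pos k with rfl | hpos
  · exact orderOf_eq_one_iff.1 (by rw [hk, pow_zero])
  · exact absurd ((dvd_pow_self p hpos.ne').trans h2) (not_dvd_relIndex he hmax hab)

end CfsgLib.Blocks.InertiaFixed
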